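import Cfsg.Agent.H514.QS.J3Eqs
import Cfsg.Agent.H48.J3Three
import Cfsg.Agent.H6.QO.Frame

/-!
# `3·J₃`: the elements of the table in the group (helper514)
-/

set_option autoImplicit false

namespace Cfsg.Agent.H514.QS

open Cfsg Cfsg.Spor Cfsg.Agent.J3.Core Cfsg.Agent.J3.Elts Cfsg.Agent.J3.Tab Cfsg.Agent.J3.Mono Subgroup Matrix
open Cfsg.Agent.H48.J3Three (pr pr_surjective ker_pr pce)
open Cfsg.Agent.H777.Ore (IsC AllC)

/-! ### lists -/

theorem get_of_le {α : Type} (d : α) : ∀ (l : List α) (n : ℕ), l.length ≤ n → get d l n = d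
  | [], _, _ => rfl
  | _ :: _, 0, h => absurd h (by simp)
  | a :: l, n + 1, h => by
    have := get_of_le d l n (by simpa using h)
    show (bif Nat.beq (n + 1) 0 then a else get d l (Nat.pred (n + 1))) = d
    exact this

theorem tb_of_le {k : ℕ} (h : 1061 ≤ k) : tb k = tS 0 := by
  unfold tb
  by_cases h1 : k / 32 = 33
  · have h2 : get [] tabs (Nat.div k 32) = tc33 := by
      have : Nat.div k 32 = 33 := h1
      rw [this]; rfl
    rw [h2]
    apply get_of_le
    show 5 ≤ k % 32
    omega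
  · have h2 : get [] tabs (Nat.div k 32) = [] := by
      apply get_of_le
      show 34 ≤ k / 32
      omega
    rw [h2]
    rfl

theorem dAll_spec : ∀ (l : List (ℕ × ℕ)) (k : ℕ), dAll k l = true → ∀ i < l.length, ∃ e, dOk (k + i) e = true
  | [], _, _, i, hi => absurd hi (by simp)
  | e :: l, k, h, i, hi => by
    have h' : (dOk k e && dAll (Nat.succ k) l) = true := h
    rw [Bool.and_eq_true] at h'
    cases i with
    | zero => exact ⟨e, h'.1⟩
    | succ i =>
      obtain ⟨e', he'⟩ := dAll_spec l (Nat.succ k) h'.2 i (by simpa using hi)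
      exact ⟨e', by rw [show k + (i + 1) = Nat.succ k + i by omega]; exact he'⟩

theorem exists_der {k : ℕ} (h8 : 8 ≤ k) (h : k < 1061) : ∃ e, dOk k e = true := by
  have key : ∀ (b n : ℕ) (l : List (ℕ × ℕ)), dAll b l = true → l.length = n → b ≤ k → k < b + n → ∃ e, dOk k e = true := by
    intro b n l hl hn h1 h2
    obtain ⟨e, he⟩ := dAll_spec l b hl (k - b) (by omega)
    exact ⟨e, by rwa [show b + (k - b) = k by omega] at he⟩
  rcases Nat.lt_or_ge k 136 with h1 | h1
  · exact key 8 128 _ dr0_ok rfl h8 (by omega)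
  rcases Nat.lt_or_ge k 264 with h2 | h2
  · exact key 136 128 _ dr1_ok rfl h1 (by omega)
  rcases Nat.lt_or_ge k 392 with h3 | h3
  · exact key 264 128 _ dr2_ok rfl h2 (by omega)
  rcases Nat.lt_or_ge k 520 with h4 | h4
  · exact key 392 128 _ dr3_ok rfl h3 (by omega)
  rcases Nat.lt_or_ge k 648 with h5 | h5
  · exact key 520 128 _ dr4_ok rfl h4 (by omega)
  rcases Nat.lt_or_ge k 776 with h6 | h6
  · exact key 648 128 _ dr5_ok rfl h5 (by omega)
  rcases Nat.lt_or_ge k 904 with h7 | h7
  · exact key 776 128 _ dr6_ok rfl h6 (by omega)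
  rcases Nat.lt_or_ge k 1032 with h9 | h9
  · exact key 904 128 _ dr7_ok rfl h7 (by omega)
  · exact key 1032 29 _ dr8_ok rfl h9 (by omega)

theorem tb0 : tb 0 = tS 0 := by decide +kernel
theorem tb1 : tb 1 = tD (0, 1) := by decide +kernel
theorem tb2 : tb 2 = tC := by decide +kernel
theorem tb3 : tb 3 = tB (1, 1) := by decide +kernel
theorem tb4 : tb 4 = tA (0, 1) := by decide +kernel
theorem tb5 : tb 5 = tA (1, 0) := by decide +kernel
theorem tb6 : tb 6 = tE := by decide +kernel
theorem tb7 : tb 7 = tD (1, 0) := by decide +kernel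

section model
variable {F : Type*} [Field F] {ω : F}

theorem rep_one (H : Good ω) : Rep ω (tS 0) (mat ω (1 : threeJ3 F ω)) := by
  have h1 := repS H 0 (by norm_num)
  rw [pow_zero, one_smul] at h1
  rw [map_one]
  exact h1

/-- the elements of the table -/
theorem exists_el_aux [Fintype F] (hF : Fintype.card F = 4) (H : Good ω) (k : ℕ) :
    ∃ u : threeJ3 F ω, Rep ω (tb k) (mat ω u) := by
  obtain ⟨G⟩ := exists_gens hF H
  induction k using Nat.strong_induction_on with
  | _ k ih =>
    rcases Nat.lt_or_ge k 8 with h | h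
    · have hB : ((1, 1) : F9) ≠ 0 := by decide
      interval_cases k
      · exact ⟨1, by rw [tb0]; exact rep_one H⟩
      · exact ⟨G.d (0, 1), by rw [tb1, G.hd]; exact repD H _⟩
      · exact ⟨G.c, by rw [tb2, G.hc]; exact repC H⟩
      · exact ⟨G.b (1, 1), by rw [tb3, G.hb _ hB]; exact repB H _ hB⟩
      · exact ⟨G.a (0, 1), by rw [tb4, G.ha]; exact repA H _⟩
      · exact ⟨G.a (1, 0), by rw [tb5, G.ha]; exact repA H _⟩
      · exact ⟨G.e, by rw [tb6, G.he]; exact repE H⟩
      · exact ⟨G.d (1, 0), by rw [tb7, G.hd]; exact repD H _⟩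
    · rcases Nat.lt_or_ge k 1061 with h1 | h1
      · obtain ⟨e, he⟩ := exists_der h h1
        have he' : (Nat.blt e.1 k && (Nat.blt e.2 k && beqL (tb k) (compT (tb e.1) (tb e.2)))) = true := he
        rw [Bool.and_eq_true, Bool.and_eq_true] at he'
        obtain ⟨u, hu⟩ := ih e.1 (Nat.blt_eq.mp he'.1)
        obtain ⟨v, hv⟩ := ih e.2 (Nat.blt_eq.mp he'.2.1)
        refine ⟨u * v, ?_⟩
        rw [beqL_eq he'.2.2, map_mul]
        exact hu.mul hv
      · exact ⟨1, by rw [tb_of_le h1]; exact rep_one H⟩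

/-- a family of elements with the tables `tb` -/
def Fam (el : ℕ → threeJ3 F ω) : Prop := ∀ k, Rep ω (tb k) (mat ω (el k))

theorem exists_fam [Fintype F] (hF : Fintype.card F = 4) (H : Good ω) : ∃ el : ℕ → threeJ3 F ω, Fam el := by
  choose el hel using exists_el_aux hF H
  exact ⟨el, hel⟩

variable {el : ℕ → threeJ3 F ω} {s0 : threeJ3 F ω}

theorem mul_of_e3 (H : Good ω) (hel : Fam el) (hs0 : mat ω s0 = ω • 1) {a b k z : ℕ} (hz : z < 3)
    (h : e3 a b k z = true) : el a * el b = s0 ^ z * el k := by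
  apply mat_injective
  have h1 : Rep ω (compT (tS z) (tb k)) (mat ω (s0 ^ z * el k)) := by
    rw [map_mul, map_pow, hs0, smul_pow, one_pow]
    exact (repS H z hz).mul (hel k)
  have h2 : Rep ω (compT (tb a) (tb b)) (mat ω (el a * el b)) := by
    rw [map_mul]
    exact (hel a).mul (hel b)
  refine Rep.ext h2 h1 ?_
  rw [cols_compT, cols_compT]
  exact beqL_eq h

theorem mul_of_e4 (H : Good ω) (hel : Fam el) (hs0 : mat ω s0 = ω • 1) {a b c d z : ℕ} (hz : z < 3)
    (h : e4 a b c d z = true) : el a * el b = s0 ^ z * (el c * el d) := by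
  apply mat_injective
  have h1 : Rep ω (compT (tS z) (compT (tb c) (tb d))) (mat ω (s0 ^ z * (el c * el d))) := by
    rw [map_mul, map_pow, hs0, smul_pow, one_pow, map_mul]
    exact (repS H z hz).mul ((hel c).mul (hel d))
  have h2 : Rep ω (compT (tb a) (tb b)) (mat ω (el a * el b)) := by
    rw [map_mul]
    exact (hel a).mul (hel b)
  refine Rep.ext h2 h1 ?_
  rw [cols_compT, cols_compT, cols_compT]
  exact beqL_eq h

theorem s0_central (hs0 : mat ω s0 = ω • 1) : s0 ∈ center (threeJ3 F ω) := by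
  rw [mem_center_iff]
  intro g
  apply mat_injective
  rw [map_mul, map_mul, hs0, smul_mul_assoc, mul_smul_comm, one_mul, mul_one]

theorem pr_s0 (hs0 : mat ω s0 = ω • 1) : pr F ω s0 = 1 := by
  have h : s0 ∈ (pr F ω).ker := by rw [ker_pr]; exact s0_central hs0
  exact h

theorem pr_e3 (H : Good ω) (hel : Fam el) (hs0 : mat ω s0 = ω • 1) {a b k z : ℕ} (hz : z < 3)
    (h : e3 a b k z = true) : pr F ω (el a) * pr F ω (el b) = pr F ω (el k) := by
  rw [← map_mul, mul_of_e3 H hel hs0 hz h, map_mul, map_pow, pr_s0 hs0, one_pow, one_mul]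

theorem pr_e4 (H : Good ω) (hel : Fam el) (hs0 : mat ω s0 = ω • 1) {a b c d z : ℕ} (hz : z < 3)
    (h : e4 a b c d z = true) : pr F ω (el a) * pr F ω (el b) = pr F ω (el c) * pr F ω (el d) := by
  rw [← map_mul, mul_of_e4 H hel hs0 hz h, map_mul, map_mul, map_pow, pr_s0 hs0, one_pow, one_mul]

theorem el_zero (H : Good ω) (hel : Fam el) : el 0 = 1 := by
  apply mat_injective
  have h1 := hel 0
  rw [tb0] at h1
  exact Rep.ext h1 (rep_one H) rfl

/-- two elements with the same image differ by a power of `s0` -/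
theorem exists_pow [Fintype F] (hF : Fintype.card F = 4) (H : Good ω) (hs0 : mat ω s0 = ω • 1) {g h : threeJ3 F ω}
    (e : pr F ω g = pr F ω h) : ∃ z < 3, g = s0 ^ z * h := by
  have h1 : g * h⁻¹ ∈ (pr F ω).ker := by
    rw [MonoidHom.mem_ker, map_mul, map_inv, e, mul_inv_cancel]
  rw [ker_pr, J3.Nineteen.center_eq hF H hs0] at h1
  have h3 : s0 ^ 3 = 1 := by
    apply mat_injective
    rw [map_pow, hs0, smul_pow, one_pow, H.cube, one_smul, map_one]
  obtain ⟨n, hn⟩ := h1
  have hn' : s0 ^ n = g * h⁻¹ := hn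
  have h4 : s0 ^ n = s0 ^ (n % 3).toNat := by
    have h5 : ((n % 3).toNat : ℤ) = n % 3 := Int.toNat_of_nonneg (Int.emod_nonneg _ (by norm_num))
    rw [← zpow_natCast, h5]
    conv_lhs => rw [← Int.mul_ediv_add_emod n 3, _root_.zpow_add, _root_.zpow_mul]
    have h6 : s0 ^ (3 : ℤ) = 1 := by exact_mod_cast h3
    rw [h6, _root_.one_zpow, one_mul]
  refine ⟨(n % 3).toNat, ?_, ?_⟩
  · have := Int.emod_lt_of_pos n (show (0 : ℤ) < 3 by norm_num)
    have := Int.emod_nonneg n (show (3 : ℤ) ≠ 0 by norm_num)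
    omega
  · rw [← h4, hn']
    group

/-! ### codes -/

theorem cols_eq_of_rep (H : Good ω) {T U : List ℕ} {g : Matrix F9 F9 F} (hT : Rep ω T g) (hU : Rep ω U g)
    (lT : (cols T).length = 9) (lU : (cols U).length = 9) : cols T = cols U := by
  have hb : ∀ V : List ℕ, (∀ t ∈ V, t < 2 ^ 18) → ∀ i, (cols V).getD i 0 < 2 ^ 18 := by
    intro V hV i
    rw [cols_getD]
    by_cases hi : 2 * i < V.length
    · rw [List.getD_eq_getElem _ _ hi]
      exact hV _ (List.getElem_mem hi)
    · rw [List.getD_eq_default _ _ (by omega)]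
      norm_num
  apply List.ext_getElem
  · rw [lT, lU]
  · intro i h1 h2
    have hi : i < 9 := by rw [lT] at h1; exact h1
    obtain ⟨z, hz⟩ : ∃ z : F9, idx z = i := by
      clear h1 h2
      interval_cases i
      · exact ⟨(0, 0), rfl⟩
      · exact ⟨(0, 1), rfl⟩
      · exact ⟨(0, 2), rfl⟩
      · exact ⟨(1, 0), rfl⟩
      · exact ⟨(1, 1), rfl⟩
      · exact ⟨(1, 2), rfl⟩
      · exact ⟨(2, 0), rfl⟩
      · exact ⟨(2, 1), rfl⟩
      · exact ⟨(2, 2), rfl⟩
    have h3 := hT.col z
    rw [hU.col z] at h3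
    have h4 := dec_injOn H (hb U hU.1 _) (hb T hT.1 _) h3
    rw [hz, List.getD_eq_getElem _ _ h1, List.getD_eq_getElem _ _ h2] at h4
    exact h4.symm

theorem compT_length (T U : List ℕ) : (compT T U).length = U.length := List.length_map ..

theorem cols_length : ∀ {T : List ℕ} {n : ℕ}, T.length = 2 * n → (cols T).length = n
  | [], n, h => by
    have : n = 0 := by simpa using h.symm
    rw [this]; rfl
  | [_], n, h => by
    simp only [List.length_cons, List.length_nil] at h
    omega
  | _ :: _ :: l, n, h => by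
    simp only [List.length_cons] at h
    obtain ⟨m, rfl⟩ : ∃ m, n = m + 1 := ⟨n - 1, by omega⟩
    have := cols_length (T := l) (n := m) (by omega)
    show (cols l).length + 1 = m + 1
    rw [this]

theorem tb_length (k : ℕ) : (tb k).length = 18 := by
  induction k using Nat.strong_induction_on with
  | _ k ih =>
    rcases Nat.lt_or_ge k 8 with h | h
    · interval_cases k <;> decide +kernel
    · rcases Nat.lt_or_ge k 1061 with h1 | h1
      · obtain ⟨e, he⟩ := exists_der h h1
        have he' : (Nat.blt e.1 k && (Nat.blt e.2 k && beqL (tb k) (compT (tb e.1) (tb e.2)))) = true := he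
        rw [Bool.and_eq_true, Bool.and_eq_true] at he'
        rw [beqL_eq he'.2.2, compT_length, ih e.2 (Nat.blt_eq.mp he'.2.1)]
      · rw [tb_of_le h1]
        decide +kernel

/-- the code of `ω ^ z` times element `k` -/
def cd (z k : ℕ) : ℕ := code (compT (tS z) (cols (tb k)))

theorem mn_eq (a b : ℕ) : mn a b = min a b := by
  unfold mn
  rcases h : Nat.ble a b with _ | _
  · have : ¬ a ≤ b := fun h1 => by rw [Nat.ble_eq_true_of_le h1] at h; exact absurd h (by simp)
    rw [cond_false, min_eq_right (by omega)]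
  · rw [cond_true, min_eq_left (Nat.le_of_ble_eq_true h)]

theorem mc_eq (k : ℕ) : mc k = min (cd 0 k) (min (cd 1 k) (cd 2 k)) := by
  unfold mc
  rw [mn_eq, mn_eq]
  rfl

theorem cd_eq (H : Good ω) (hel : Fam el) (hs0 : mat ω s0 = ω • 1) {i j z w : ℕ} (hz : z < 3) (hw : w < 3)
    (h : s0 ^ z * el i = s0 ^ w * el j) : cd z i = cd w j := by
  have key : ∀ (z i : ℕ), z < 3 → Rep ω (compT (tS z) (tb i)) (mat ω (s0 ^ z * el i)) := by
    intro z i hz
    rw [map_mul, map_pow, hs0, smul_pow, one_pow]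
    exact (repS H z hz).mul (hel i)
  have hl : ∀ z i : ℕ, (cols (compT (tS z) (tb i))).length = 9 := fun z i =>
    cols_length (by rw [compT_length, tb_length])
  have h1 := key z i hz
  rw [h] at h1
  have h2 := cols_eq_of_rep H h1 (key w j hw) (hl _ _) (hl _ _)
  rw [cols_compT, cols_compT] at h2
  unfold cd
  rw [h2]

theorem mc_le [Fintype F] (hF : Fintype.card F = 4) (H : Good ω) (hel : Fam el) (hs0 : mat ω s0 = ω • 1) {i j : ℕ}
    (h : pr F ω (el i) = pr F ω (el j)) : mc i ≤ mc j := by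
  have key : ∀ z < 3, ∃ w < 3, cd w i = cd z j := by
    intro z hz
    have h1 : pr F ω (s0 ^ z * el j) = pr F ω (el i) := by
      rw [map_mul, map_pow, pr_s0 hs0, one_pow, one_mul, h]
    obtain ⟨w, hw, e⟩ := exists_pow hF H hs0 h1
    exact ⟨w, hw, (cd_eq H hel hs0 hz hw e).symm⟩
  have h0 : ∀ w < 3, mc i ≤ cd w i := by
    intro w hw
    rw [mc_eq]
    interval_cases w
    · exact min_le_left _ _
    · exact (min_le_right _ _).trans (min_le_left _ _)
    · exact (min_le_right _ _).trans (min_le_right _ _)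
  have h2 : ∀ z < 3, mc i ≤ cd z j := by
    intro z hz
    obtain ⟨w, hw, e⟩ := key z hz
    exact e ▸ h0 w hw
  rw [mc_eq j]
  exact le_min (h2 0 (by norm_num)) (le_min (h2 1 (by norm_num)) (h2 2 (by norm_num)))

theorem mc_congr [Fintype F] (hF : Fintype.card F = 4) (H : Good ω) (hel : Fam el) (hs0 : mat ω s0 = ω • 1) {i j : ℕ}
    (h : pr F ω (el i) = pr F ω (el j)) : mc i = mc j :=
  le_antisymm (mc_le hF H hel hs0 h) (mc_le hF H hel hs0 h.symm)

theorem chain_pairwise : ∀ (l : List ℕ), chOk l = true → l.Pairwise fun a b => mc a < mc b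
  | [], _ => List.Pairwise.nil
  | [a], _ => List.pairwise_singleton _ _
  | a :: b :: l, h => by
    have h' : (Nat.blt (mc a) (mc b) && chOk (b :: l)) = true := h
    rw [Bool.and_eq_true] at h'
    have h1 := chain_pairwise (b :: l) h'.2
    have h2 : mc a < mc b := Nat.blt_eq.mp h'.1
    refine List.Pairwise.cons ?_ h1
    intro c hc
    rcases List.mem_cons.1 hc with rfl | hc
    · exact h2
    · exact h2.trans (List.rel_of_pairwise_cons h1 hc)

/-- distinct images -/
theorem nodup_of_ch [Fintype F] (hF : Fintype.card F = 4) (H : Good ω) (hel : Fam el) (hs0 : mat ω s0 = ω • 1)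
    {l : List ℕ} (h : chOk l = true) : (l.map fun i => pr F ω (el i)).Nodup := by
  unfold List.Nodup
  rw [List.pairwise_map]
  exact (chain_pairwise l h).imp fun {a b} h1 h2 => absurd (mc_congr hF H hel hs0 h2) (by omega)

end model

end Cfsg.Agent.H514.QS
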