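import Cfsg.Agent.H514.QS.J3Grp
import Cfsg.Agent.H455.Ore.J3
import Cfsg.Agent.S2041

/-!
# `3·J₃`: every element is a commutator (helper514)
-/

set_option autoImplicit false

namespace Cfsg.Agent.H514.QS

open Cfsg Cfsg.Spor Cfsg.Agent.J3.Core Cfsg.Agent.J3.Elts Cfsg.Agent.J3.Tab Cfsg.Agent.J3.Mono Subgroup Matrix
open Cfsg.Agent.H48.J3Three (pr pr_surjective ker_pr pce)
open Cfsg.Agent.H777.Ore (IsC AllC)
open scoped Pointwise

universe u v

/-- elements of prime power order are conjugate into a subgroup of Sylow order -/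
theorem sylow_conj {K : Type u} [Group K] [Finite K] {p : ℕ} [Fact p.Prime] (H : Subgroup K)
    (hH : Nat.card H = p ^ (Nat.card K).factorization p) {k : K} {m : ℕ} (hk : orderOf k = p ^ m) :
    ∃ g : K, g * k * g⁻¹ ∈ H := by
  let P : Sylow p K := Sylow.ofCard H hH
  have h1 : IsPGroup p (zpowers k) := IsPGroup.of_card (n := m) (by rw [Nat.card_zpowers, hk])
  obtain ⟨Q, hQ⟩ := h1.exists_le_sylow
  obtain ⟨g, hg⟩ := MulAction.exists_smul_eq K Q P
  refine ⟨g, ?_⟩
  have h2 : g * k * g⁻¹ ∈ (MulAut.conj g • (Q : Subgroup K) : Subgroup K) := by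
    have := Subgroup.smul_mem_pointwise_smul k (MulAut.conj g) (Q : Subgroup K) (hQ (mem_zpowers k))
    simpa using this
  have h3 : ((g • Q : Sylow p K) : Subgroup K) = H := by rw [hg]; rfl
  rw [← h3, Sylow.coe_subgroup_smul]
  exact h2

/-- a finite set closed under left multiplication by the generators contains the subgroup -/
theorem closure_sub {K : Type u} [Group K] {S Q : Set K} (hQ : Q.Finite) (h1 : (1 : K) ∈ Q)
    (h : ∀ s ∈ S, ∀ q ∈ Q, s * q ∈ Q) : ∀ g ∈ closure S, g ∈ Q := by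
  have key : closure S ≤ MulAction.stabilizer K Q := by
    rw [closure_le]
    intro s hs
    show s ∈ MulAction.stabilizer K Q
    rw [MulAction.mem_stabilizer_iff]
    have h2 : s • Q ⊆ Q := by
      rintro _ ⟨q, hq, rfl⟩
      exact h s hs q hq
    refine Set.eq_of_subset_of_ncard_le h2 ?_ hQ
    rw [Set.ncard_smul_set]
  intro g hg
  have h2 := MulAction.mem_stabilizer_iff.1 (key hg)
  rw [← h2]
  exact ⟨1, h1, mul_one g⟩

theorem conj_pow {L : Type u} [Group L] {c x s : L} (hs : s ∈ center L) (h : c * x = s * (x * c)) (n : ℕ) :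
    c ^ n * x * (c ^ n)⁻¹ = s ^ n * x := by
  induction n with
  | zero => simp
  | succ n ih =>
    have h2 : c * s ^ n = s ^ n * c := (mem_center_iff.1 (pow_mem hs n) c)
    calc c ^ (n + 1) * x * (c ^ (n + 1))⁻¹ = c * (c ^ n * x * (c ^ n)⁻¹) * c⁻¹ := by rw [pow_succ']; group
      _ = c * s ^ n * x * c⁻¹ := by rw [ih]; group
      _ = s ^ n * (c * x) * c⁻¹ := by rw [h2]; group
      _ = s ^ n * s * x := by rw [h]; group
      _ = s ^ (n + 1) * x := by rw [pow_succ]

section zip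

theorem zip_spec (g : ℕ) : ∀ (l : List ℕ) (m : List (ℕ × ℕ)), zipOk g l m = true → ∀ p ∈ l, ∃ k z, inP k = true ∧ z < 3 ∧
    e3 g p k z = true
  | [], _, _, p, hp => absurd hp (by simp)
  | _ :: _, [], h, _, _ => absurd (show false = true from h) (by simp)
  | q :: l, w :: m, h, p, hp => by
    have h' : (inP w.1 && (Nat.blt w.2 3 && (e3 g q w.1 w.2 && zipOk g l m))) = true := h
    rw [Bool.and_eq_true, Bool.and_eq_true, Bool.and_eq_true] at h'
    rcases List.mem_cons.1 hp with rfl | hp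
    · exact ⟨w.1, w.2, h'.1, Nat.blt_eq.mp h'.2.1, h'.2.2.1⟩
    · exact zip_spec g l m h'.2.2.2 p hp

theorem f_spec : ∀ (l : List ℕ) (m : List (ℕ × ℕ)), fAll l m = true → ∀ p ∈ l, ∃ w, fOk p w = true
  | [], _, _, p, hp => absurd hp (by simp)
  | _ :: _, [], h, _, _ => absurd (show false = true from h) (by simp)
  | q :: l, w :: m, h, p, hp => by
    have h' : (fOk q w && fAll l m) = true := h
    rw [Bool.and_eq_true] at h'
    rcases List.mem_cons.1 hp with rfl | hp
    · exact ⟨w, h'.1⟩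
    · exact f_spec l m h'.2 p hp

theorem cf_spec : ∀ (l m : List ℕ), cfOk l m = true → ∀ c ∈ l, ∃ z < 3, e4 c 778 778 c z = true
  | [], _, _, p, hp => absurd hp (by simp)
  | _ :: _, [], h, _, _ => absurd (show false = true from h) (by simp)
  | q :: l, w :: m, h, p, hp => by
    have h' : (Nat.blt w 3 && (e4 q 778 778 q w && cfOk l m)) = true := h
    rw [Bool.and_eq_true, Bool.and_eq_true] at h'
    rcases List.mem_cons.1 hp with rfl | hp
    · exact ⟨w, Nat.blt_eq.mp h'.1, h'.2.1⟩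
    · exact cf_spec l m h'.2.2 p hp

theorem inP_iff {k : ℕ} : inP k = true ↔ k ≤ 244 ∧ k ≠ 2 ∧ k ≠ 3 := by
  unfold inP
  rw [Bool.and_eq_true, Bool.and_eq_true, Nat.ble_eq, Bool.not_eq_true', Bool.not_eq_true']
  refine and_congr Iff.rfl (and_congr ?_ ?_)
  · rw [← Bool.not_eq_true, Nat.beq_eq]
  · rw [← Bool.not_eq_true, Nat.beq_eq]

theorem mem_p3 {k : ℕ} (h : inP k = true) : k ∈ p3 := by
  rw [inP_iff] at h
  obtain ⟨h1, h2, h3⟩ := h
  have key : ∀ k < 245, k ≠ 2 → k ≠ 3 → k ∈ p3 := by decide +kernel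
  exact key k (by omega) h2 h3

theorem der_P : (dr0.all fun e => inP e.1 && inP e.2) = true := by decide +kernel

theorem der_P' : ((dr1.take 109).all fun e => inP e.1 && inP e.2) = true := by decide +kernel

theorem dAll_spec' : ∀ (l : List (ℕ × ℕ)) (k : ℕ), dAll k l = true → ∀ i (hi : i < l.length), dOk (k + i) l[i] = true
  | [], _, _, i, hi => absurd hi (by simp)
  | e :: l, k, h, i, hi => by
    have h' : (dOk k e && dAll (Nat.succ k) l) = true := h
    rw [Bool.and_eq_true] at h'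
    cases i with
    | zero => exact h'.1
    | succ i =>
      have := dAll_spec' l (Nat.succ k) h'.2 i (by simpa using hi)
      rw [show k + (i + 1) = Nat.succ k + i by omega]
      exact this

theorem exists_derP {k : ℕ} (h8 : 8 ≤ k) (h : k ≤ 244) : ∃ e : ℕ × ℕ, dOk k e = true ∧ inP e.1 = true ∧ inP e.2 = true := by
  rcases Nat.lt_or_ge k 136 with h1 | h1
  · have hl : dr0.length = 128 := rfl
    have h2 := dAll_spec' dr0 8 dr0_ok (k - 8) (by omega)
    have h3 := List.all_eq_true.1 der_P _ (List.getElem_mem (show k - 8 < dr0.length by omega))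
    rw [Bool.and_eq_true] at h3
    exact ⟨_, by rwa [show 8 + (k - 8) = k by omega] at h2, h3⟩
  · have hl : dr1.length = 128 := rfl
    have h2 := dAll_spec' dr1 136 dr1_ok (k - 136) (by omega)
    have hm : dr1[k - 136]'(by omega) ∈ dr1.take 109 := by
      rw [List.mem_take_iff_getElem]
      exact ⟨k - 136, by omega, rfl⟩
    have h3 := List.all_eq_true.1 der_P' _ hm
    rw [Bool.and_eq_true] at h3
    exact ⟨_, by rwa [show 136 + (k - 136) = k by omega] at h2, h3⟩

end zip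

section main

variable {F : Type} [Field F] [Fintype F] {ω : F} {el : ℕ → threeJ3 F ω} {s0 : threeJ3 F ω}

/-- all preimages are commutators -/
def PP (k : J3 F ω) : Prop := ∀ g : threeJ3 F ω, pr F ω g = k → IsC g

omit [Fintype F] in
theorem PP.conj {k k' : J3 F ω} (h : PP k) (e : IsConj k k') : PP k' := by
  obtain ⟨c, rfl⟩ := isConj_iff.1 e
  obtain ⟨c, rfl⟩ := pr_surjective c
  intro g hg
  refine IsC.of_conj c⁻¹ (h _ ?_)
  rw [map_mul, map_mul, hg, inv_inv, map_inv]
  group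

theorem PP.of_fused (hF : Fintype.card F = 4) (H : Good ω) (hs0 : mat ω s0 = ω • 1) {x c : threeJ3 F ω}
    (h : c * x = s0 * (x * c)) (hC : IsC (pr F ω x)) : PP (pr F ω x) := by
  have hs := s0_central hs0
  obtain ⟨a, b, e⟩ := hC
  obtain ⟨a, rfl⟩ := pr_surjective a
  obtain ⟨b, rfl⟩ := pr_surjective b
  rw [← map_inv, ← map_inv, ← map_mul, ← map_mul, ← map_mul] at e
  obtain ⟨z, -, hz⟩ := exists_pow hF H hs0 e.symm
  have h1 : IsC (s0 ^ z * x) := ⟨a, b, hz.symm⟩
  have h2 : IsC x := h1.of_isConj (IsConj.symm (isConj_iff.2 ⟨c ^ z, conj_pow hs h z⟩))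
  intro g hg
  obtain ⟨w, -, hw⟩ := exists_pow hF H hs0 hg
  exact h2.of_isConj (isConj_iff.2 ⟨c ^ w, by rw [conj_pow hs h w, hw]⟩)

theorem PP.of_comm (hF : Fintype.card F = 4) (H : Good ω) (hs0 : mat ω s0 = ω • 1) {x c y : threeJ3 F ω}
    (h : c * x = s0 * (x * c)) {k : J3 F ω} (hk : k = pr F ω x * pr F ω y * (pr F ω x)⁻¹ * (pr F ω y)⁻¹) : PP k := by
  intro g hg
  refine H6.QO.isC_of_pair_zpowers (π := pr F ω) (z := s0) (x := x) (k := pr F ω y) pr_surjective (by rw [ker_pr]) ?_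
    (pr_s0 hs0) (by rw [hg, hk]) ?_
  · intro ζ hζ
    rw [← J3.Nineteen.center_eq hF H hs0, ← ker_pr]
    exact hζ
  · refine isConj_iff.2 ⟨c, ?_⟩
    rw [h, ← mul_assoc, mul_inv_cancel_right]
    exact (mem_center_iff.1 (s0_central hs0) x).symm

theorem PP.one (hF : Fintype.card F = 4) (H : Good ω) (hs0 : mat ω s0 = ω • 1) {x c : threeJ3 F ω}
    (h : c * x = s0 * (x * c)) : PP (1 : J3 F ω) := by
  intro g hg
  rw [← map_one (pr F ω)] at hg
  obtain ⟨w, -, hw⟩ := exists_pow hF H hs0 hg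
  refine ⟨c ^ w, x, ?_⟩
  rw [conj_pow (s0_central hs0) h w, hw]
  group

variable (el s0) in
/-- the setting -/
structure Set' (ω : F) (el : ℕ → threeJ3 F ω) (s0 : threeJ3 F ω) : Prop where
  card : Fintype.card F = 4
  good : Good ω
  fam : Fam el
  hs0 : mat ω s0 = ω • 1

/-- the elements of `J₃` -/
abbrev ka (el : ℕ → threeJ3 F ω) (k : ℕ) : J3 F ω := pr F ω (el k)

omit [Fintype F] in
theorem ka_zero (H : Good ω) (hel : Fam el) : ka el 0 = 1 := by
  unfold ka
  rw [el_zero H hel, map_one]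

variable (S : Set' ω el s0)
include S

theorem Set'.fus : el 4 * el 1 = s0 * (el 1 * el 4) := by
  have := mul_of_e4 S.good S.fam S.hs0 (by norm_num) fus_one
  rwa [pow_one] at this

theorem Set'.e3 {a b k z : ℕ} (hz : z < 3) (h : e3 a b k z = true) : ka el a * ka el b = ka el k :=
  pr_e3 S.good S.fam S.hs0 hz h

theorem Set'.e4 {a b c d z : ℕ} (hz : z < 3) (h : e4 a b c d z = true) : ka el a * ka el b = ka el c * ka el d :=
  pr_e4 S.good S.fam S.hs0 hz h

theorem Set'.PP_rl {r : ℕ} (h : r ∈ rl.map Prod.fst) : PP (ka el r) := by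
  obtain ⟨e, he, rfl⟩ := List.mem_map.1 h
  have h1 := List.all_eq_true.1 rl_ok e he
  have h2 : (Nat.blt e.2.2.2.1 3 && (Nat.blt e.2.2.2.2 3 && (QS.e4 1 e.2.1 e.1 e.2.2.1 e.2.2.2.1 &&
    QS.e3 e.2.1 1 e.2.2.1 e.2.2.2.2))) = true := h1
  rw [Bool.and_eq_true, Bool.and_eq_true, Bool.and_eq_true] at h2
  obtain ⟨h3, h4, h5, h6⟩ := h2
  have h7 := S.e4 (Nat.blt_eq.mp h3) h5
  have h8 := S.e3 (Nat.blt_eq.mp h4) h6
  refine PP.of_comm S.card S.good S.hs0 S.fus (y := el e.2.1) ?_
  show ka el e.1 = ka el 1 * ka el e.2.1 * (ka el 1)⁻¹ * (ka el e.2.1)⁻¹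
  rw [h7, ← h8]
  group

theorem Set'.conj_of_e4 {h r p z : ℕ} (hz : z < 3) (e : QS.e4 h r p h z = true) : IsConj (ka el r) (ka el p) := by
  have h1 := S.e4 hz e
  exact isConj_iff.2 ⟨ka el h, by rw [h1]; group⟩

theorem Set'.PP_tl {p : ℕ} (h : p ∈ tl.map Prod.fst) : PP (ka el p) := by
  obtain ⟨e, he, rfl⟩ := List.mem_map.1 h
  have h1 := List.all_eq_true.1 tl_ok e he
  have h2 : (Nat.blt e.2.2.2 3 && ((rl.map Prod.fst).elem e.2.2.1 && QS.e4 e.2.1 e.2.2.1 e.1 e.2.1 e.2.2.2)) = true := h1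
  rw [Bool.and_eq_true, Bool.and_eq_true] at h2
  obtain ⟨h3, h4, h5⟩ := h2
  exact (S.PP_rl (List.elem_iff.1 h4)).conj (S.conj_of_e4 (Nat.blt_eq.mp h3) h5)

theorem Set'.isoJ3 : Spor.IsoJ3 (J3 F ω) := by
  refine ⟨F, inferInstance, inferInstance, ω, S.card, S.good.om, ⟨MulEquiv.refl _⟩⟩

theorem Set'.ore (k : J3 F ω) : IsC k := H455.Ore.J3.row_j3 S.isoJ3 k

theorem Set'.PP_one : PP (1 : J3 F ω) := PP.one S.card S.good S.hs0 S.fus

/-- the elements of the Sylow 3-subgroup -/
theorem Set'.PP_p3 {p : ℕ} (h : inP p = true) : PP (ka el p) := by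
  obtain ⟨w, hw⟩ := f_spec p3 fw fw_ok p (mem_p3 h)
  unfold fOk at hw
  rcases h4 : Nat.beq w.1 4 with _ | _
  · rw [h4, cond_false] at hw
    rcases h3 : Nat.beq w.1 3 with _ | _
    · rw [h3, cond_false, Bool.and_eq_true] at hw
      exact (S.PP_rl (r := 225) (by decide)).conj (S.conj_of_e4 (Nat.blt_eq.mp hw.1) hw.2)
    · rw [h3, cond_true] at hw
      have h5 := mul_of_e4 S.good S.fam S.hs0 (by norm_num) hw
      rw [pow_one] at h5
      exact PP.of_fused S.card S.good S.hs0 h5 (S.ore _)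
  · rw [h4, cond_true] at hw
    have h0 : p = 0 := Nat.eq_of_beq_eq_true hw
    rw [h0, ka_zero S.good S.fam]
    exact S.PP_one

/-- the Sylow 3-subgroup -/
def H3 (el : ℕ → threeJ3 F ω) : Subgroup (J3 F ω) := closure {ka el 4, ka el 5, ka el 6, ka el 1, ka el 7}

theorem Set'.mem_H3 {g : J3 F ω} (hg : g ∈ H3 el) : ∃ p, inP p = true ∧ g = ka el p := by
  have hfin : ({g | ∃ p, inP p = true ∧ g = ka el p} : Set (J3 F ω)).Finite := by
    refine ((Set.finite_Iic 244).image (ka el)).subset ?_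
    rintro _ ⟨p, hp, rfl⟩
    exact ⟨p, (inP_iff.1 hp).1, rfl⟩
  refine closure_sub hfin ⟨0, by decide, (ka_zero S.good S.fam).symm⟩ ?_ g hg
  rintro s hs _ ⟨p, hp, rfl⟩
  have key : ∀ (n : ℕ) (m : List (ℕ × ℕ)), zipOk n p3 m = true → ∃ q, inP q = true ∧ ka el n * ka el p = ka el q := by
    intro n m hm
    obtain ⟨k, z, h1, h2, h3⟩ := zip_spec n p3 m hm p (mem_p3 hp)
    exact ⟨k, h1, S.e3 h2 h3⟩
  simp only [Set.mem_insert_iff, Set.mem_singleton_iff] at hs
  rcases hs with rfl | rfl | rfl | rfl | rfl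
  · exact key 4 _ cl4_ok
  · exact key 5 _ cl5_ok
  · exact key 6 _ cl6_ok
  · exact key 1 _ cl1_ok
  · exact key 7 _ cl7_ok

theorem Set'.ka_mem_H3 {k : ℕ} (h : inP k = true) : ka el k ∈ H3 el := by
  induction k using Nat.strong_induction_on with
  | _ k ih =>
    obtain ⟨h1, h2, h3⟩ := inP_iff.1 h
    rcases Nat.lt_or_ge k 8 with h8 | h8
    · interval_cases k
      · rw [ka_zero S.good S.fam]; exact one_mem _
      · exact subset_closure (by simp)
      · exact absurd rfl h2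
      · exact absurd rfl h3
      · exact subset_closure (by simp)
      · exact subset_closure (by simp)
      · exact subset_closure (by simp)
      · exact subset_closure (by simp)
    · obtain ⟨e, he, hp1, hp2⟩ := exists_derP h8 h1
      have he' : (Nat.blt e.1 k && (Nat.blt e.2 k && beqL (tb k) (compT (tb e.1) (tb e.2)))) = true := he
      rw [Bool.and_eq_true, Bool.and_eq_true] at he'
      have h4 : el k = el e.1 * el e.2 := by
        apply mat_injective
        have h5 := (S.fam e.1).mul (S.fam e.2)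
        rw [← beqL_eq he'.2.2] at h5
        rw [map_mul]
        exact Rep.ext (S.fam k) h5 rfl
      show pr F ω (el k) ∈ H3 el
      rw [h4, map_mul]
      exact mul_mem (ih e.1 (Nat.blt_eq.mp he'.1) hp1) (ih e.2 (Nat.blt_eq.mp he'.2.1) hp2)

theorem Set'.card_J3 : Nat.card (J3 F ω) = 50232960 := J3.Simple.card_J3 S.card S.good

theorem Set'.finite_J3 : Finite (J3 F ω) := Nat.finite_of_card_ne_zero (by rw [S.card_J3]; norm_num)

/-- counting with a list -/
theorem Set'.le_card {l : List ℕ} (h : chOk l = true) (X : Subgroup (J3 F ω)) (hX : ∀ k ∈ l, ka el k ∈ X) :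
    l.length ≤ Nat.card X := by
  classical
  have hfin := S.finite_J3
  have h1 := nodup_of_ch S.card S.good S.fam S.hs0 h
  have h2 : (l.map fun i => pr F ω (el i)).toFinset.card = l.length := by
    rw [List.toFinset_card_of_nodup h1, List.length_map]
  have h3 : (((l.map fun i => pr F ω (el i)).toFinset : Finset (J3 F ω)) : Set (J3 F ω)) ⊆ (X : Set (J3 F ω)) := by
    intro g hg
    rw [Finset.mem_coe, List.mem_toFinset, List.mem_map] at hg
    obtain ⟨i, hi, rfl⟩ := hg
    exact hX i hi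
  rw [← h2, ← Set.ncard_coe_finset, ← Nat.card_coe_set_eq]
  exact Nat.card_mono (Set.toFinite _) h3

theorem Set'.card_H3 : Nat.card (H3 el) = 3 ^ 5 := by
  have hfin := S.finite_J3
  have h1 : 243 ≤ Nat.card (H3 el) := by
    rw [← q3_len]
    exact S.le_card q3_ch _ fun k hk => S.ka_mem_H3 (List.all_eq_true.1 q3_in k hk)
  have h2 : Nat.card (H3 el) ≤ 243 := by
    classical
    have h3 : ((H3 el : Subgroup (J3 F ω)) : Set (J3 F ω)) ⊆ (((p3.map (ka el)).toFinset : Finset (J3 F ω)) : Set (J3 F ω)) := by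
      intro g hg
      obtain ⟨p, hp, rfl⟩ := S.mem_H3 hg
      rw [Finset.mem_coe, List.mem_toFinset, List.mem_map]
      exact ⟨p, mem_p3 hp, rfl⟩
    calc Nat.card (H3 el) ≤ Nat.card (((p3.map (ka el)).toFinset : Finset (J3 F ω)) : Set (J3 F ω)) :=
          Nat.card_mono (Set.toFinite _) h3
      _ = ((p3.map (ka el)).toFinset).card := by rw [Nat.card_coe_set_eq, Set.ncard_coe_finset]
      _ ≤ (p3.map (ka el)).length := List.toFinset_card_le _
      _ = 243 := by rw [List.length_map]; decide +kernel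
  omega

/-- the 3-elements -/
theorem Set'.PP_three {k : J3 F ω} {m : ℕ} (hk : orderOf k = 3 ^ m) : PP k := by
  have hfin := S.finite_J3
  have f3 : Fact (Nat.Prime 3) := ⟨Nat.prime_three⟩
  obtain ⟨g, hg⟩ := sylow_conj (H3 el) (by
    rw [S.card_H3, S.card_J3]
    have h1 : (50232960 : ℕ) = 3 ^ 5 * 206720 := by norm_num
    rw [h1, Nat.factorization_mul (by norm_num) (by norm_num), Finsupp.add_apply, Nat.prime_three.factorization_pow,
      Finsupp.single_eq_same, Nat.factorization_eq_zero_of_not_dvd (by norm_num)]) hk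
  obtain ⟨p, hp, e⟩ := S.mem_H3 hg
  refine (S.PP_p3 hp).conj ?_
  rw [← e]
  exact (isConj_iff.2 ⟨g, rfl⟩).symm

/-- a list exhausts a subgroup -/
theorem Set'.mem_of_card {l : List ℕ} (h : chOk l = true) (X : Subgroup (J3 F ω)) (hX : ∀ k ∈ l, ka el k ∈ X)
    (hc : Nat.card X ≤ l.length) {g : J3 F ω} (hg : g ∈ X) : ∃ k ∈ l, g = ka el k := by
  classical
  have hfin := S.finite_J3
  have h1 := nodup_of_ch S.card S.good S.fam S.hs0 h
  have h2 : (l.map fun i => pr F ω (el i)).toFinset.card = l.length := by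
    rw [List.toFinset_card_of_nodup h1, List.length_map]
  have h3 : (((l.map fun i => pr F ω (el i)).toFinset : Finset (J3 F ω)) : Set (J3 F ω)) ⊆ (X : Set (J3 F ω)) := by
    intro g hg
    rw [Finset.mem_coe, List.mem_toFinset, List.mem_map] at hg
    obtain ⟨i, hi, rfl⟩ := hg
    exact hX i hi
  have h4 : (((l.map fun i => pr F ω (el i)).toFinset : Finset (J3 F ω)) : Set (J3 F ω)) = (X : Set (J3 F ω)) := by
    refine Set.eq_of_subset_of_ncard_le h3 ?_ (Set.toFinite _)
    rw [Set.ncard_coe_finset, h2, ← Nat.card_coe_set_eq]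
    exact hc
  have h5 : g ∈ (((l.map fun i => pr F ω (el i)).toFinset : Finset (J3 F ω)) : Set (J3 F ω)) := by rw [h4]; exact hg
  rw [Finset.mem_coe, List.mem_toFinset, List.mem_map] at h5
  obtain ⟨i, hi, rfl⟩ := h5
  exact ⟨i, hi, rfl⟩

theorem Set'.pows (r : ℕ) : ∀ (l : List ℕ) (zs : List ℕ), pOk r l zs = true → ∀ (a : ℕ) (l' : List ℕ), l = a :: l' →
    (∀ i (hi : i < l.length), ka el l[i] = ka el r ^ i * ka el a) ∧ ka el r ^ l.length * ka el a = 1
  | [], _, _, _, _, e => absurd e (by simp)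
  | [_], [], h, _, _, _ => absurd (show false = true from h) (by simp)
  | _ :: _ :: _, [], h, _, _, _ => absurd (show false = true from h) (by simp)
  | [b], z :: _, h, a, l', e => by
    have h' : (Nat.blt z 3 && QS.e3 r b 0 z) = true := h
    rw [Bool.and_eq_true] at h'
    obtain ⟨rfl, rfl⟩ := List.cons_eq_cons.1 e
    have h1 := S.e3 (Nat.blt_eq.mp h'.1) h'.2
    rw [ka_zero S.good S.fam] at h1
    refine ⟨?_, ?_⟩
    · intro i hi
      have hi' : i = 0 := by simpa using hi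
      subst hi'
      simp
    · simpa using h1
  | b :: c :: l, z :: m, h, a, l', e => by
    have h' : (Nat.blt z 3 && (QS.e3 r b c z && pOk r (c :: l) m)) = true := h
    rw [Bool.and_eq_true, Bool.and_eq_true] at h'
    obtain ⟨rfl, rfl⟩ := List.cons_eq_cons.1 e
    have h1 := S.e3 (Nat.blt_eq.mp h'.1) h'.2.1
    obtain ⟨h2, h3⟩ := Set'.pows r (c :: l) m h'.2.2 c l rfl
    refine ⟨?_, ?_⟩
    · intro i hi
      cases i with
      | zero => simp
      | succ i =>
        rw [List.getElem_cons_succ, h2 i (by simpa using hi), ← h1, pow_succ, mul_assoc]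
    · rw [List.length_cons, pow_succ, mul_assoc, h1]
      exact h3

omit S in
theorem beqL_refl : ∀ l : List ℕ, beqL l l = true
  | [] => rfl
  | a :: l => by
    show (Nat.beq a a && beqL l l) = true
    rw [Nat.beq_refl, beqL_refl l]; rfl

theorem Set'.ne_one {k : ℕ} (h : nsOk k = true) : ka el k ≠ 1 := by
  intro h1
  rw [← ka_zero S.good S.fam] at h1
  obtain ⟨z, hz, e⟩ := exists_pow S.card S.good S.hs0 h1
  have h2 : Rep ω (compT (tS z) (tb 0)) (mat ω (s0 ^ z * el 0)) := by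
    rw [map_mul, map_pow, S.hs0, smul_pow, one_pow]
    exact (repS S.good z hz).mul (S.fam 0)
  have h3 : Rep ω (compT (tb 0) (tb k)) (mat ω (s0 ^ z * el 0)) := by
    rw [← e, ← one_mul (el k), ← el_zero S.good S.fam, map_mul]
    exact (S.fam 0).mul (S.fam k)
  have h4 := cols_eq_of_rep S.good h3 h2 (cols_length (by rw [compT_length, tb_length]))
    (cols_length (by rw [compT_length, tb_length]))
  rw [cols_compT, cols_compT] at h4
  have h5 : QS.e3 0 k 0 z = true := by
    unfold QS.e3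
    rw [h4]
    exact beqL_refl _
  unfold nsOk at h
  rw [Bool.and_eq_true, Bool.and_eq_true] at h
  interval_cases z
  · rw [h5] at h; exact absurd h.1 (by simp)
  · rw [h5] at h; exact absurd h.2.1 (by simp)
  · rw [h5] at h; exact absurd h.2.2 (by simp)

/-- orders from lists of powers -/
theorem Set'.order {r n : ℕ} {l zs : List ℕ} (h : pOk r (0 :: l) zs = true) (hn : (0 :: l).length = n)
    (hq : ∀ q, q.Prime → q ∣ n → ∃ k, nsOk k = true ∧ (0 :: l).getD (n / q) 0 = k) :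
    orderOf (ka el r) = n ∧ ∀ i (hi : i < (0 :: l).length), ka el (0 :: l)[i] = ka el r ^ i := by
  obtain ⟨h1, h2⟩ := S.pows r (0 :: l) zs h 0 l rfl
  rw [ka_zero S.good S.fam, mul_one, hn] at h2
  have hpos : 0 < n := by rw [← hn]; simp
  have h3 : ∀ i (hi : i < (0 :: l).length), ka el (0 :: l)[i] = ka el r ^ i := by
    intro i hi
    rw [h1 i hi, ka_zero S.good S.fam, mul_one]
  refine ⟨orderOf_eq_of_pow_and_pow_div_prime hpos h2 ?_, h3⟩
  intro q hq1 hq2
  obtain ⟨k, hk, e⟩ := hq q hq1 hq2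
  have hlt : n / q < (0 :: l).length := by
    rw [hn]
    exact Nat.div_lt_self hpos hq1.one_lt
  rw [← h3 _ hlt]
  rw [List.getD_eq_getElem _ _ hlt] at e
  rw [e]
  exact S.ne_one hk

end main

/-- the classes of elements of order 2, 4, 6, 8, 12 -/
theorem even_conj {K : Type u} [Group K] (h : Spor.IsoJ3 K) {a b : K} {n : ℕ} (hn : n = 2 ∨ n = 4 ∨ n = 6 ∨ n = 8 ∨ n = 12)
    (ha : orderOf a = n) (hb : orderOf b = n) : IsConj a b := by
  obtain ⟨hs, hc, -⟩ := H898.J3Cent.base h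
  have hfin : Finite K := Nat.finite_of_card_ne_zero (by rw [hc]; norm_num)
  obtain ⟨t, D, hD, hall⟩ := H417.JThreeCols.exists_coded_iso h
  have key : ∀ g : K, orderOf g = n → ∃ a : Fin 8, IsConj (J3Type.CharOrder.y t D a) g ∧ J3Type.CharOrder.ord a = n := by
    intro g hg
    have h1 : orderOf (g ^ (n / 2)) = 2 := by
      rw [orderOf_pow_of_dvd (by omega) (by rw [hg]; rcases hn with rfl | rfl | rfl | rfl | rfl <;> decide), hg]
      rcases hn with rfl | rfl | rfl | rfl | rfl <;> rfl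
    have h2 : ∃ a : Fin 8, IsConj (J3Type.CharOrder.y t D a) g := by
      rcases H455.Ore.J3.even_cases hD hall h1 with h2 | ⟨a, -, -, h2⟩
      · exact ⟨1, h2⟩
      · exact ⟨a, h2⟩
    obtain ⟨a, h3⟩ := h2
    refine ⟨a, h3, ?_⟩
    rw [← J3Type.CharOrder.ord_y hD, ← hg]
    obtain ⟨c, rfl⟩ := isConj_iff.1 h3
    exact (MulEquiv.orderOf_eq (MulAut.conj c) _).symm
  obtain ⟨i, hi, hi'⟩ := key a ha
  obtain ⟨j, hj, hj'⟩ := key b hb
  have hij : i = j := by
    by_contra hne
    rcases J3Type.CharOrder.ord_eq i j hne (hi'.trans hj'.symm) with ⟨h1, -⟩ | ⟨h1, -⟩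
    · rw [h1] at hi'
      have : J3Type.CharOrder.ord 6 = 10 := rfl
      omega
    · rw [h1] at hi'
      have : J3Type.CharOrder.ord 7 = 10 := rfl
      omega
  rw [hij] at hi
  exact hi.symm.trans hj

/-- the orders of elements of even order -/
theorem even_order {K : Type u} [Group K] (h : Spor.IsoJ3 K) {g : K} (h2 : 2 ∣ orderOf g) (h5 : ¬ 5 ∣ orderOf g) :
    orderOf g = 2 ∨ orderOf g = 4 ∨ orderOf g = 6 ∨ orderOf g = 8 ∨ orderOf g = 12 := by
  obtain ⟨hs, hc, -⟩ := H898.J3Cent.base h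
  have hfin : Finite K := Nat.finite_of_card_ne_zero (by rw [hc]; norm_num)
  obtain ⟨t, D, hD, hall⟩ := H417.JThreeCols.exists_coded_iso h
  obtain ⟨n, hn⟩ := h2
  have hpos : 0 < orderOf g := orderOf_pos g
  have hn0 : n ≠ 0 := by rintro rfl; omega
  have ho : orderOf (g ^ n) = 2 := by
    rw [orderOf_pow_of_dvd hn0 ⟨2, by rw [hn]; ring⟩, hn]
    exact Nat.mul_div_cancel _ (Nat.pos_of_ne_zero hn0)
  have h2 : ∃ a : Fin 8, a ≠ 0 ∧ IsConj (J3Type.CharOrder.y t D a) g := by
    rcases H455.Ore.J3.even_cases hD hall ho with h2 | ⟨a, ha, -, h2⟩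
    · exact ⟨1, by decide, h2⟩
    · exact ⟨a, ha, h2⟩
  obtain ⟨a, ha, h3⟩ := h2
  have h4 : orderOf g = J3Type.CharOrder.ord a := by
    rw [← J3Type.CharOrder.ord_y hD]
    obtain ⟨c, rfl⟩ := isConj_iff.1 h3
    exact (MulEquiv.orderOf_eq (MulAut.conj c) _)
  rw [h4] at h5 ⊢
  have key : ∀ a : Fin 8, a ≠ 0 → ¬ 5 ∣ J3Type.CharOrder.ord a → J3Type.CharOrder.ord a = 2 ∨ J3Type.CharOrder.ord a = 4 ∨
    J3Type.CharOrder.ord a = 6 ∨ J3Type.CharOrder.ord a = 8 ∨ J3Type.CharOrder.ord a = 12 := by decide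
  exact key a ha h5

section main

variable {F : Type} [Field F] [Fintype F] {ω : F} {el : ℕ → threeJ3 F ω} {s0 : threeJ3 F ω} (S : Set' ω el s0)
include S

theorem Set'.PP_even {k : J3 F ω} (h2 : 2 ∣ orderOf k) (h5 : ¬ 5 ∣ orderOf k) : PP k := by
  have hp : ∀ {n q : ℕ}, q.Prime → q ∣ n → n ∣ 24 → q = 2 ∨ q = 3 := by
    intro n q hq h1 h2
    have h3 : q ∣ 2 ^ 3 * 3 := h1.trans h2
    rcases (Nat.Prime.dvd_mul hq).1 h3 with h4 | h4
    · exact Or.inl ((Nat.prime_dvd_prime_iff_eq hq Nat.prime_two).1 (hq.dvd_of_dvd_pow h4))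
    · exact Or.inr ((Nat.prime_dvd_prime_iff_eq hq Nat.prime_three).1 h4)
  rcases even_order S.isoJ3 h2 h5 with h | h | h | h | h
  · have h1 := (S.order (n := 2) pw2_ok rfl fun q hq hd => by
      rcases hp hq hd (by norm_num) with rfl | rfl
      · exact ⟨_, pw2_ns2, rfl⟩
      · exact absurd hd (by norm_num)).1
    exact (S.PP_rl (r := 254) (by decide)).conj (even_conj S.isoJ3 (by omega) h1 h)
  · have h1 := (S.order (n := 4) pw4_ok rfl fun q hq hd => by
      rcases hp hq hd (by norm_num) with rfl | rfl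
      · exact ⟨_, pw4_ns2, rfl⟩
      · exact absurd hd (by norm_num)).1
    exact (S.PP_rl (r := 258) (by decide)).conj (even_conj S.isoJ3 (by omega) h1 h)
  · have h1 := (S.order (n := 6) pw6_ok rfl fun q hq hd => by
      rcases hp hq hd (by norm_num) with rfl | rfl
      · exact ⟨_, pw6_ns2, rfl⟩
      · exact ⟨_, pw6_ns3, rfl⟩).1
    exact (S.PP_rl (r := 271) (by decide)).conj (even_conj S.isoJ3 (by omega) h1 h)
  · have h1 := (S.order (n := 8) pw8_ok rfl fun q hq hd => by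
      rcases hp hq hd (by norm_num) with rfl | rfl
      · exact ⟨_, pw8_ns2, rfl⟩
      · exact absurd hd (by norm_num)).1
    exact (S.PP_rl (r := 288) (by decide)).conj (even_conj S.isoJ3 (by omega) h1 h)
  · have h1 := (S.order (n := 12) pw12_ok rfl fun q hq hd => by
      rcases hp hq hd (by norm_num) with rfl | rfl
      · exact ⟨_, pw12_ns2, rfl⟩
      · exact ⟨_, pw12_ns3, rfl⟩).1
    exact (S.PP_rl (r := 305) (by decide)).conj (even_conj S.isoJ3 (by omega) h1 h)

omit S in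
theorem prime_of_dvd {n q : ℕ} (hn : n.Prime) (hq : q.Prime) (h : q ∣ n) : q = n := (Nat.prime_dvd_prime_iff_eq hq hn).1 h

omit S in
theorem orderOf_of_cent {K : Type u} [Group K] [Finite K] {k : K} {p : ℕ} (hp : p.Prime) (hd : p ∣ orderOf k)
    (h : ∀ y : K, orderOf y = p → Nat.card (centralizer ({y} : Set K)) = p) : orderOf k = p ^ 1 := by
  obtain ⟨m, hm⟩ := hd
  have hpos : 0 < orderOf k := orderOf_pos k
  have hm0 : m ≠ 0 := by rintro rfl; omega
  have ho : orderOf (k ^ m) = p := by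
    rw [orderOf_pow_of_dvd hm0 ⟨p, by rw [hm]; ring⟩, hm]
    exact Nat.mul_div_cancel _ (Nat.pos_of_ne_zero hm0)
  have h1 : k ∈ centralizer ({k ^ m} : Set K) := mem_centralizer_singleton_iff.2 (Commute.refl k |>.pow_right m).eq
  have h2 := Subgroup.orderOf_dvd_natCard _ h1
  rw [h _ ho] at h2
  rw [pow_one]
  rcases (Nat.dvd_prime hp).1 h2 with h3 | h3
  · exfalso
    rw [orderOf_eq_one_iff] at h3
    rw [h3, one_pow, orderOf_one] at ho
    exact hp.one_lt.ne ho
  · exact h3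

/-- Sylow subgroups of prime order generated by an element of the table -/
theorem Set'.PP_cyc {p r : ℕ} (hp : p.Prime) {l zs : List ℕ} (h : pOk r (0 :: l) zs = true) (hn : (0 :: l).length = p)
    (hq : nsOk r = true) (hl : (0 :: l).getD 1 0 = r) (hfac : (50232960 : ℕ).factorization p = 1)
    (hall : ((0 :: l).all fun c => (tl.map Prod.fst).elem c || Nat.beq c 0) = true)
    {k : J3 F ω} (hk : orderOf k = p ^ 1) : PP k := by
  have hfin := S.finite_J3
  have fp : Fact p.Prime := ⟨hp⟩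
  obtain ⟨h1, h2⟩ := S.order h hn fun q hq1 hq2 => by
    obtain rfl := prime_of_dvd hp hq1 hq2
    exact ⟨r, hq, by rw [Nat.div_self hp.pos]; exact hl⟩
  obtain ⟨g, hg⟩ := sylow_conj (zpowers (ka el r)) (by rw [Nat.card_zpowers, h1, S.card_J3, hfac, pow_one]) hk
  have h3 : g * k * g⁻¹ ∈ Submonoid.powers (ka el r) := by rwa [mem_powers_iff_mem_zpowers]
  classical
  rw [mem_powers_iff_mem_range_orderOf, h1, Finset.mem_image] at h3
  obtain ⟨i, hi, e⟩ := h3
  have hi' : i < (0 :: l).length := by rw [hn]; exact Finset.mem_range.1 hi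
  rw [← h2 i hi'] at e
  have h4 : PP (ka el (0 :: l)[i]) := by
    have h5 := List.all_eq_true.1 hall _ (List.getElem_mem hi')
    rw [Bool.or_eq_true] at h5
    rcases h5 with h5 | h5
    · exact S.PP_tl (List.elem_iff.1 h5)
    · rw [Nat.eq_of_beq_eq_true h5, ka_zero S.good S.fam]
      exact S.PP_one
  refine h4.conj ?_
  rw [e]
  exact (isConj_iff.2 ⟨g, rfl⟩).symm

theorem Set'.PP_17 {k : J3 F ω} (h : 17 ∣ orderOf k) : PP k := by
  have hfin := S.finite_J3
  have hp : Nat.Prime 17 := by norm_num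
  refine S.PP_cyc hp pw17_ok rfl (by exact pw17_ns17) rfl ?_ pw17_cases
    (orderOf_of_cent hp h fun y hy => (H898.J3Cent.seventeen S.isoJ3 hy).1)
  have h1 : (50232960 : ℕ) = 17 ^ 1 * 2954880 := by norm_num
  rw [h1, Nat.factorization_mul (by norm_num) (by norm_num), Finsupp.add_apply, hp.factorization_pow,
    Finsupp.single_eq_same, Nat.factorization_eq_zero_of_not_dvd (by norm_num)]

theorem Set'.PP_19 {k : J3 F ω} (h : 19 ∣ orderOf k) : PP k := by
  have hfin := S.finite_J3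
  have hp : Nat.Prime 19 := by norm_num
  refine S.PP_cyc hp pw19_ok rfl (by exact pw19_ns19) rfl ?_ pw19_cases
    (orderOf_of_cent hp h fun y hy => H898.J3Cent.card_nineteen S.isoJ3 hy)
  have h1 : (50232960 : ℕ) = 19 ^ 1 * 2643840 := by norm_num
  rw [h1, Nat.factorization_mul (by norm_num) (by norm_num), Finsupp.add_apply, hp.factorization_pow,
    Finsupp.single_eq_same, Nat.factorization_eq_zero_of_not_dvd (by norm_num)]

theorem Set'.PP_5 {k : J3 F ω} (h : 5 ∣ orderOf k) : PP k := by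
  have hfin := S.finite_J3
  have hp : Nat.Prime 5 := by norm_num
  have f5 : Fact (Nat.Prime 5) := ⟨hp⟩
  obtain ⟨h1, h2⟩ := S.order (n := 5) pw5_ok rfl fun q hq1 hq2 => by
    obtain rfl := prime_of_dvd hp hq1 hq2
    exact ⟨_, pw5_ns5, rfl⟩
  obtain ⟨m, hm⟩ := h
  have hpos : 0 < orderOf k := orderOf_pos k
  have hm0 : m ≠ 0 := by rintro rfl; omega
  have ho : orderOf (k ^ m) = 5 := by
    rw [orderOf_pow_of_dvd hm0 ⟨5, by rw [hm]; ring⟩, hm]
    exact Nat.mul_div_cancel _ (Nat.pos_of_ne_zero hm0)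
  obtain ⟨g, hg⟩ := sylow_conj (zpowers (ka el 778)) (by
    have h1' : (50232960 : ℕ) = 5 ^ 1 * 10046592 := by norm_num
    rw [Nat.card_zpowers, h1, S.card_J3, h1', Nat.factorization_mul (by norm_num) (by norm_num), Finsupp.add_apply,
      hp.factorization_pow, Finsupp.single_eq_same, Nat.factorization_eq_zero_of_not_dvd (by norm_num)]
    norm_num) (k := k ^ m) (m := 1) (by rw [ho, pow_one])
  -- `f` is a power of the conjugate of `k ^ m`
  have h3 : zpowers (g * k ^ m * g⁻¹) = zpowers (ka el 778) := by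
    refine Subgroup.eq_of_le_of_card_ge (zpowers_le.2 hg) ?_
    rw [Nat.card_zpowers, Nat.card_zpowers, h1]
    have h4 : orderOf (g * k ^ m * g⁻¹) = orderOf (k ^ m) := MulEquiv.orderOf_eq (MulAut.conj g) (k ^ m)
    rw [h4, ho]
  have h4 : ka el 778 ∈ zpowers (g * k ^ m * g⁻¹) := by rw [h3]; exact mem_zpowers _
  have h5 : g * k * g⁻¹ ∈ centralizer ({ka el 778} : Set (J3 F ω)) := by
    rw [mem_centralizer_singleton_iff]
    obtain ⟨n, hn⟩ := h4
    have hn' : (g * k ^ m * g⁻¹) ^ n = ka el 778 := hn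
    have h6 : g * k ^ m * g⁻¹ = (g * k * g⁻¹) ^ m := (_root_.conj_pow).symm
    rw [← hn', h6]
    exact ((Commute.refl (g * k * g⁻¹)).pow_right m).zpow_right n
  obtain ⟨c, hc, e⟩ := S.mem_of_card q5_ch (centralizer ({ka el 778} : Set (J3 F ω))) (fun c hc => by
    obtain ⟨z, hz, h6⟩ := cf_spec q5 _ cf_ok c hc
    rw [mem_centralizer_singleton_iff]
    exact S.e4 hz h6) (by rw [q5_len]; exact H455.Ore.J3.card_five S.isoJ3 h1) h5
  have h6 := List.all_eq_true.1 c5_cases c hc
  rw [Bool.or_eq_true] at h6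
  rcases h6 with h6 | h6
  · refine (S.PP_tl (List.elem_iff.1 h6)).conj ?_
    rw [← e]
    exact (isConj_iff.2 ⟨g, rfl⟩).symm
  · exfalso
    obtain ⟨s, hs, hs'⟩ := List.mem_map.1 (List.elem_iff.1 h6)
    have h7 := List.all_eq_true.1 sl_ok s hs
    have h8 : (Nat.blt s.2.2.1 3 && (Nat.blt s.2.2.2 3 && (QS.e3 s.1 s.1 s.2.1 s.2.2.1 &&
      (Nat.beq s.2.1 0 || QS.e3 s.1 s.2.1 0 s.2.2.2)))) = true := h7
    rw [Bool.and_eq_true, Bool.and_eq_true, Bool.and_eq_true, Bool.or_eq_true] at h8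
    obtain ⟨h9, h10, h11, h12⟩ := h8
    have h13 := S.e3 (Nat.blt_eq.mp h9) h11
    have h14 : ka el s.1 ^ 6 = 1 := by
      rcases h12 with h12 | h12
      · rw [Nat.eq_of_beq_eq_true h12, ka_zero S.good S.fam] at h13
        rw [show (6 : ℕ) = 2 * 3 from rfl, pow_mul, pow_two, h13, one_pow]
      · have h15 := S.e3 (Nat.blt_eq.mp h10) h12
        rw [ka_zero S.good S.fam, ← h13] at h15
        have h17 : ka el s.1 ^ 3 = 1 := by rw [pow_succ, pow_two, mul_assoc]; exact h15
        rw [show (6 : ℕ) = 3 * 2 from rfl, pow_mul, h17, one_pow]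
    have h15 : orderOf k ∣ 6 := by
      have h16 : orderOf (g * k * g⁻¹) = orderOf k := MulEquiv.orderOf_eq (MulAut.conj g) k
      rw [← h16, e, ← hs']
      exact orderOf_dvd_of_pow_eq_one h14
    have h16 : 5 ∣ 6 := (Dvd.intro m hm.symm).trans h15
    revert h16
    decide

/-- every element of `3·J₃` is a commutator -/
theorem Set'.all (k : J3 F ω) : PP k := by
  have hfin := S.finite_J3
  by_cases h17 : 17 ∣ orderOf k
  · exact S.PP_17 h17
  by_cases h19 : 19 ∣ orderOf k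
  · exact S.PP_19 h19
  by_cases h5 : 5 ∣ orderOf k
  · exact S.PP_5 h5
  by_cases h2 : 2 ∣ orderOf k
  · exact S.PP_even h2 h5
  have hd : orderOf k ∣ 50232960 := by rw [← S.card_J3]; exact orderOf_dvd_natCard _
  have h1 : (50232960 : ℕ) = 3 ^ 5 * (2 ^ 7 * (5 * (17 * 19))) := by norm_num
  rw [h1] at hd
  have c2 : Nat.Coprime (orderOf k) (2 ^ 7) := Nat.Coprime.pow_right 7 ((Nat.Prime.coprime_iff_not_dvd Nat.prime_two).2 h2).symm
  have c5 : Nat.Coprime (orderOf k) 5 := ((Nat.Prime.coprime_iff_not_dvd (by norm_num)).2 h5).symm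
  have c17 : Nat.Coprime (orderOf k) 17 := ((Nat.Prime.coprime_iff_not_dvd (by norm_num)).2 h17).symm
  have c19 : Nat.Coprime (orderOf k) 19 := ((Nat.Prime.coprime_iff_not_dvd (by norm_num)).2 h19).symm
  have h3 : orderOf k ∣ 3 ^ 5 :=
    (c2.mul_right (c5.mul_right (c17.mul_right c19))).dvd_of_dvd_mul_right hd
  obtain ⟨m, -, hm⟩ := (Nat.dvd_prime_pow Nat.prime_three).1 h3
  exact S.PP_three hm

end main

/-- **every element of `3·J₃` is a commutator** -/
theorem allC_threeJ3 {F : Type} [Field F] [Fintype F] (hF : Fintype.card F = 4) {ω : F} (hω : ω ^ 2 + ω + 1 = 0) :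
    AllC (threeJ3 F ω) := by
  have H := good_of_card hF hω
  obtain ⟨G⟩ := exists_gens hF H
  obtain ⟨s0, hs0⟩ := J3.Nineteen.exists_scalar H G
  obtain ⟨el, hel⟩ := exists_fam hF H
  intro g
  exact Set'.all ⟨hF, H, hel, hs0⟩ (pr F ω g) g rfl

/-- **the row of `J₃` for S2491 and S2492** -/
theorem rowA_j3 {K : Type u} [Group K] (h : Spor.IsoJ3 K) : H6.QO.RowA K := by
  obtain ⟨F, _, _, ω, hF, hω, ⟨e⟩⟩ := h
  have H := good_of_card hF hω
  refine H6.QO.RowA.congr ?_ e.symm
  refine H6.QO.RowA.of_univ (Cfsg.Agent.S2041.result hF ω hω) (pce hF H) ?_ (allC_threeJ3 hF hω)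
  rw [ker_pr, J3.Nineteen.card_center hF H]
  simp

end Cfsg.Agent.H514.QS
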